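import Cfsg.Agent.SylowConj.Basic

/-! Lifting the intersection of two distinct Sylow subgroups of a quotient. -/

set_option autoImplicit false

namespace CfsgLib.SylowMeet

variable {G Q : Type*} [Group G] [Finite G] [Group Q] {p : ℕ} [Fact p.Prime]

/-- The intersection of two different Sylow subgroups of a homomorphic image is the image of a subgroup of the
intersection of two different Sylow subgroups. -/
theorem exists_lift (f : G →* Q) (hf : Function.Surjective f) (S T : Sylow p Q) (hne : S ≠ T) :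
    ∃ (S₀ T₀ : Sylow p G) (X : Subgroup G), S₀ ≠ T₀ ∧ X ≤ (S₀ : Subgroup G) ⊓ (T₀ : Subgroup G) ∧
      X.map f = (S : Subgroup Q) ⊓ (T : Subgroup Q) := by
  obtain ⟨S₁, hS₁⟩ := Sylow.mapSurjective_surjective hf p S
  obtain ⟨T₁, hT₁⟩ := Sylow.mapSurjective_surjective hf p T
  have hS : (S₁ : Subgroup G).map f = S := by rw [← Sylow.coe_mapSurjective hf, hS₁]
  have hT : (T₁ : Subgroup G).map f = T := by rw [← Sylow.coe_mapSurjective hf, hT₁]
  set X := (S₁ : Subgroup G) ⊓ (T : Subgroup Q).comap f with hX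
  have hXp : IsPGroup p X := S₁.isPGroup'.to_le inf_le_left
  have hT₁K : (T₁ : Subgroup G) ≤ (T : Subgroup Q).comap f := fun x hx =>
    Subgroup.mem_comap.mpr (hT ▸ Subgroup.mem_map_of_mem f hx)
  obtain ⟨h, hh, hconj⟩ := CfsgLib.SylowConj.exists_conj_mem _ T₁ hT₁K X hXp inf_le_right
  set T₂ : Sylow p G := h⁻¹ • T₁ with hT₂
  have hmem : ∀ y : G, y ∈ (T₂ : Subgroup G) ↔ h * y * h⁻¹ ∈ (T₁ : Subgroup G) := by
    intro y
    rw [hT₂, Sylow.coe_subgroup_smul, Subgroup.mem_pointwise_smul_iff_inv_smul_mem]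
    simp
  have hT₂f : ∀ y ∈ (T₂ : Subgroup G), f y ∈ (T : Subgroup Q) := by
    intro y hy
    have h1 := hT₁K ((hmem y).mp hy)
    rw [Subgroup.mem_comap, map_mul, map_mul, map_inv] at h1
    have h2 := Subgroup.mem_comap.mp hh
    simpa [mul_assoc] using (T : Subgroup Q).mul_mem ((T : Subgroup Q).mul_mem ((T : Subgroup Q).inv_mem h2) h1) h2
  refine ⟨S₁, T₂, X, fun heq => ?_, le_inf inf_le_left fun x hx => (hmem x).mpr (hconj x hx), ?_⟩
  · apply hne
    refine Sylow.ext (S.3 T.2 ?_).symm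
    intro q hq
    obtain ⟨y, hy, rfl⟩ := (hS.symm ▸ hq : q ∈ (S₁ : Subgroup G).map f)
    exact hT₂f y (heq ▸ hy)
  · refine le_antisymm ?_ ?_
    · rintro q ⟨y, hy, rfl⟩
      exact ⟨hS ▸ Subgroup.mem_map_of_mem f hy.1, hy.2⟩
    · rintro q ⟨hqS, hqT⟩
      obtain ⟨y, hy, rfl⟩ := (hS.symm ▸ hqS : q ∈ (S₁ : Subgroup G).map f)
      exact ⟨y, ⟨hy, hqT⟩, rfl⟩

end CfsgLib.SylowMeet
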